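import Cfsg.Agent.H111.JM.TList
import Cfsg.Agent.H856.JM.CK.C00
import Cfsg.Agent.H856.JM.CK.C01
import Cfsg.Agent.H856.JM.CK.C02
import Cfsg.Agent.H856.JM.CK.C03
import Cfsg.Agent.H856.JM.CK.C04
import Cfsg.Agent.H856.JM.CK.C05
import Cfsg.Agent.H856.JM.CK.C06
import Cfsg.Agent.H856.JM.CK.C07
import Cfsg.Agent.H856.JM.CK.C08
import Cfsg.Agent.H856.JM.CK.C09
import Cfsg.Agent.H856.JM.CK.C10
import Cfsg.Agent.H856.JM.CK.C11
import Cfsg.Agent.H856.JM.CK.C12

/-!
# The involutions inverting `y0` and commuting with `v3`, …, `v9` (helper856)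

`cl3`, …, `cl9` : the lists (48, 16, 44, 44, 12, 8, 12 elements of the environment `LK`);
`comm3`, …, `comm9` : `TY t → t * vN = vN * t → t ∈ clN`; `mem_cl3`, … : the converse.
-/

set_option autoImplicit false
set_option maxRecDepth 100000

open Cfsg

namespace Cfsg.Agent.H856.JM.Comm

open Cfsg.Agent.Lib Cfsg.Agent.Lib.F2Mat Cfsg.Agent.Lib.F2MatGroup
open Cfsg.Agent.J4.Rep112
open Cfsg.Agent.H858.VK
open Cfsg.Agent.H878.JM.Base
open Cfsg.Agent.H111.JM.Eng Cfsg.Agent.H111.JM.Env Cfsg.Agent.H111.JM.TList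
open Cfsg.Agent.H856.JM.CommData Cfsg.Agent.H856.JM.CommTest Cfsg.Agent.H856.JM.CK

/-! ### The environment -/

/-- the environment -/
noncomputable def LK : List Spor.J4 := runG slpC LJ

theorem run_LK {k : List ℕ → Bool} (h : run 112 slpJ codes (fun L => run 112 slpC L k) = true) :
    ∃ L', List.Forall₂ (Codes 112) (LK.map rho) L' ∧ k L' = true := by
  obtain ⟨L1, h1, h2⟩ := run_env h
  obtain ⟨L', h3, h4⟩ := run_sound h1 h2
  exact ⟨L', by unfold LK; rw [← runG_map]; exact h3, h4⟩

theorem getG_runG {G : Type*} [Group G] (ws : List (List ℕ)) (L : List G) (k : ℕ) :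
    getG (runG ws L) (ws.length + k) = getG L k := by
  induction ws generalizing L k with
  | nil => rw [runG_nil, List.length_nil, Nat.zero_add]
  | cons w ws ih =>
    rw [runG_cons, List.length_cons]
    have h1 : ws.length + 1 + k = ws.length + (k + 1) := by omega
    rw [h1, ih]
    rfl

theorem length_slpC : slpC.length = 184 := by decide +kernel

theorem LK_LJ (k : ℕ) : getG LK (184 + k) = getG LJ k := by
  have h := getG_runG slpC LJ k
  rwa [length_slpC] at h

/-- positions, keys, position of `v` -/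
def dat : List (List ℕ × List ℕ × ℕ) := [(ps3, ky3, 190), (ps4, ky4, 189), (ps5, ky5, 188),
  (ps6, ky6, 187), (ps7, ky7, 186), (ps8, ky8, 185), (ps9, ky9, 184)]

/-- the test of one list of elements -/
def okl (L : List ℕ) (ps ky : List ℕ) (v : ℕ) : Bool :=
  (ps.zip ky).all fun p => cond (Nat.beq (key 12159 24 (get (F2Mat.one 112) L p.1)) p.2)
    (eqs 112 [([p.1, p.1], []), ([p.1, 202, p.1, 202], []), ([p.1, v], [v, p.1])] L) false

theorem chkK : run 112 slpJ codes (fun L => run 112 slpC L (fun L =>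
    dat.all fun d => okl L d.1 d.2.1 d.2.2)) = true := by decide +kernel

theorem y0_LK : getG LK 202 = y0 := LK_LJ 18

theorem sound {d : List ℕ × List ℕ × ℕ} (hd : d ∈ dat) {p : ℕ × ℕ} (hp : p ∈ d.1.zip d.2.1) :
    HK (getG LK p.1) p.2 ∧ TY (getG LK p.1) ∧
      getG LK p.1 * getG LK d.2.2 = getG LK d.2.2 * getG LK p.1 := by
  obtain ⟨L', h1, h2⟩ := run_LK chkK
  rw [List.all_eq_true] at h2
  have h3 := h2 d hd
  unfold okl at h3
  rw [List.all_eq_true] at h3
  obtain ⟨h4, h5⟩ := CommTest.cond_true (h3 p hp)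
  have h6 := codes_get h1 p.1
  rw [getG_map] at h6
  have h7 : ∀ q ∈ [([p.1, p.1], ([] : List ℕ)), ([p.1, 202, p.1, 202], []), ([p.1, d.2.2], [d.2.2, p.1])],
      evG LK q.1 = evG LK q.2 := by
    intro q hq
    apply rho_injective
    rw [← evG_map, ← evG_map]
    exact eqs_sound h1 h5 q hq
  have e1 := h7 ([p.1, p.1], []) (by simp)
  have e2 := h7 ([p.1, 202, p.1, 202], []) (by simp)
  have e3 := h7 ([p.1, d.2.2], [d.2.2, p.1]) (by simp)
  simp only [evG_cons, evG_nil, mul_one, y0_LK] at e1 e2 e3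
  refine ⟨HK.of_codes h6 h4, ⟨e1, ?_⟩, e3⟩
  have h8 : (getG LK p.1)⁻¹ = getG LK p.1 := inv_eq_of_mul_eq_one_left e1
  rw [h8]
  have h9 : getG LK p.1 * y0 * getG LK p.1 * y0 = 1 := by
    rw [← e2]; simp only [mul_assoc]
  exact (inv_eq_of_mul_eq_one_left h9).symm

/-! ### The lists -/

/-- the elements at given positions -/
noncomputable def lst (ps : List ℕ) : List Spor.J4 := ps.map (getG LK)

/-- the elements of `T_y` commuting with `v3` -/
noncomputable def cl3 : List Spor.J4 := lst ps3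
/-- the elements of `T_y` commuting with `v4` -/
noncomputable def cl4 : List Spor.J4 := lst ps4
/-- the elements of `T_y` commuting with `v5` -/
noncomputable def cl5 : List Spor.J4 := lst ps5
/-- the elements of `T_y` commuting with `v6` -/
noncomputable def cl6 : List Spor.J4 := lst ps6
/-- the elements of `T_y` commuting with `v7` -/
noncomputable def cl7 : List Spor.J4 := lst ps7
/-- the elements of `T_y` commuting with `v8` -/
noncomputable def cl8 : List Spor.J4 := lst ps8
/-- the elements of `T_y` commuting with `v9` -/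
noncomputable def cl9 : List Spor.J4 := lst ps9

theorem mem_zip_of_mem {ps ky : List ℕ} (h : ps.length = ky.length) {a : ℕ} (ha : a ∈ ky) :
    ∃ k, (k, a) ∈ ps.zip ky := by
  induction ky generalizing ps with
  | nil => exact absurd ha List.not_mem_nil
  | cons b ky ih =>
    rcases ps with _ | ⟨c, ps⟩
    · exact absurd h (by simp)
    · rcases List.mem_cons.1 ha with rfl | h1
      · exact ⟨c, List.mem_cons_self⟩
      · obtain ⟨k, hk⟩ := ih (by simpa using h) h1
        exact ⟨k, List.mem_cons_of_mem _ hk⟩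

theorem mem_zip_of_mem' {ps ky : List ℕ} (h : ps.length = ky.length) {k : ℕ} (hk : k ∈ ps) :
    ∃ a, (k, a) ∈ ps.zip ky := by
  induction ky generalizing ps with
  | nil =>
    rcases ps with _ | ⟨c, ps⟩
    · exact absurd hk List.not_mem_nil
    · exact absurd h (by simp)
  | cons b ky ih =>
    rcases ps with _ | ⟨c, ps⟩
    · exact absurd h (by simp)
    · rcases List.mem_cons.1 hk with rfl | h1
      · exact ⟨b, List.mem_cons_self⟩
      · obtain ⟨a, ha⟩ := ih (by simpa using h) h1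
        exact ⟨a, List.mem_cons_of_mem _ ha⟩

theorem lengths : dat.all (fun d => Nat.beq d.1.length d.2.1.length) = true := by decide +kernel

theorem length_of {d : List ℕ × List ℕ × ℕ} (hd : d ∈ dat) : d.1.length = d.2.1.length := by
  have h := lengths
  rw [List.all_eq_true] at h
  exact Nat.eq_of_beq_eq_true (h d hd)

theorem fa {p : Piece} (h : ∀ t ∈ p.vis CJ TJ, ∃ M, Codes 112 (rho t) M ∧ CP t M) :
    ∀ t ∈ p.vis CJ TJ, ∃ M, Codes 112 (rho t) M ∧ CP t M := h

theorem all_pieces : ∀ p ∈ PL, ∀ t ∈ p.vis CJ TJ, ∃ M, Codes 112 (rho t) M ∧ CP t M := by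
  intro p hp
  simp only [PL, List.mem_cons, List.not_mem_nil, or_false] at hp
  rcases hp with h | h | h | h | h | h | h | h | h | h | h | h | h | h | h | h | h | h | h | h | h | h | h | h | h | h | h | h | h | h | h | h | h | h | h | h | h | h | h | h | h | h | h | h | h | h | h | h | h | h | h | h <;> subst h
  · exact piece r0
  · exact piece r1
  · exact piece r2
  · exact piece r3
  · exact piece r4
  · exact piece r5
  · exact piece r6
  · exact piece r7
  · exact piece r8
  · exact piece r9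
  · exact piece r10
  · exact piece r11
  · exact piece r12
  · exact piece r13
  · exact piece r14
  · exact piece r15
  · exact piece r16
  · exact piece r17
  · exact piece r18
  · exact piece r19
  · exact piece r20
  · exact piece r21
  · exact piece r22
  · exact piece r23
  · exact piece r24
  · exact piece r25
  · exact piece r26
  · exact piece r27
  · exact piece r28
  · exact piece r29
  · exact piece r30
  · exact piece r31
  · exact piece r32
  · exact piece r33
  · exact piece r34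
  · exact piece r35
  · exact piece r36
  · exact piece r37
  · exact piece r38
  · exact piece r39
  · exact piece r40
  · exact piece r41
  · exact piece r42
  · exact piece r43
  · exact piece r44
  · exact piece r45
  · exact piece r46
  · exact piece r47
  · exact piece r48
  · exact piece r49
  · exact piece r50
  · exact piece r51

theorem exists_CP (hcard : Nat.card {t // TY t} ≤ 10296) {t : Spor.J4} (ht : TY t) :
    ∃ M, Codes 112 (rho t) M ∧ CP t M := T_forall hcard all_pieces ht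

theorem mem_lst (hcard : Nat.card {t // TY t} ≤ 10296) {d : List ℕ × List ℕ × ℕ} (hd : d ∈ dat)
    {t : Spor.J4} (ht : TY t) {M : ℕ} (hM : Codes 112 (rho t) M) (h : key 12159 24 M ∈ d.2.1) :
    t ∈ lst d.1 := by
  obtain ⟨k, hk⟩ := mem_zip_of_mem (length_of hd) h
  obtain ⟨h1, h2, -⟩ := sound hd hk
  have h3 : HK t (key 12159 24 M) := ⟨M, hM, rfl⟩
  rw [key_inj hcard ht h2 h3 h1]
  exact List.mem_map_of_mem (List.of_mem_zip hk).1

theorem of_mem_lst {d : List ℕ × List ℕ × ℕ} (hd : d ∈ dat) {t : Spor.J4} (h : t ∈ lst d.1) :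
    TY t ∧ t * getG LK d.2.2 = getG LK d.2.2 * t := by
  obtain ⟨k, hk, rfl⟩ := List.mem_map.1 h
  obtain ⟨a, ha⟩ := mem_zip_of_mem' (length_of hd) hk
  exact (sound hd ha).2

theorem comm3 (hcard : Nat.card {t // TY t} ≤ 10296) {t : Spor.J4} (ht : TY t)
    (h : t * v3 = v3 * t) : t ∈ cl3 := by
  obtain ⟨M, h1, h2⟩ := exists_CP hcard ht
  exact mem_lst hcard (d := (ps3, ky3, 190)) (by simp [dat]) ht h1 (h2.c3 h)

theorem mem_cl3 {t : Spor.J4} (h : t ∈ cl3) : TY t ∧ t * v3 = v3 * t := by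
  have h1 := of_mem_lst (d := (ps3, ky3, 190)) (by simp [dat]) h
  have h2 : getG LK 190 = v3 := LK_LJ 6
  rwa [h2] at h1

theorem comm4 (hcard : Nat.card {t // TY t} ≤ 10296) {t : Spor.J4} (ht : TY t)
    (h : t * v4 = v4 * t) : t ∈ cl4 := by
  obtain ⟨M, h1, h2⟩ := exists_CP hcard ht
  exact mem_lst hcard (d := (ps4, ky4, 189)) (by simp [dat]) ht h1 (h2.c4 h)

theorem mem_cl4 {t : Spor.J4} (h : t ∈ cl4) : TY t ∧ t * v4 = v4 * t := by
  have h1 := of_mem_lst (d := (ps4, ky4, 189)) (by simp [dat]) h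
  have h2 : getG LK 189 = v4 := LK_LJ 5
  rwa [h2] at h1

theorem comm5 (hcard : Nat.card {t // TY t} ≤ 10296) {t : Spor.J4} (ht : TY t)
    (h : t * v5 = v5 * t) : t ∈ cl5 := by
  obtain ⟨M, h1, h2⟩ := exists_CP hcard ht
  exact mem_lst hcard (d := (ps5, ky5, 188)) (by simp [dat]) ht h1 (h2.c5 h)

theorem mem_cl5 {t : Spor.J4} (h : t ∈ cl5) : TY t ∧ t * v5 = v5 * t := by
  have h1 := of_mem_lst (d := (ps5, ky5, 188)) (by simp [dat]) h
  have h2 : getG LK 188 = v5 := LK_LJ 4
  rwa [h2] at h1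

theorem comm6 (hcard : Nat.card {t // TY t} ≤ 10296) {t : Spor.J4} (ht : TY t)
    (h : t * v6 = v6 * t) : t ∈ cl6 := by
  obtain ⟨M, h1, h2⟩ := exists_CP hcard ht
  exact mem_lst hcard (d := (ps6, ky6, 187)) (by simp [dat]) ht h1 (h2.c6 h)

theorem mem_cl6 {t : Spor.J4} (h : t ∈ cl6) : TY t ∧ t * v6 = v6 * t := by
  have h1 := of_mem_lst (d := (ps6, ky6, 187)) (by simp [dat]) h
  have h2 : getG LK 187 = v6 := LK_LJ 3
  rwa [h2] at h1

theorem comm7 (hcard : Nat.card {t // TY t} ≤ 10296) {t : Spor.J4} (ht : TY t)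
    (h : t * v7 = v7 * t) : t ∈ cl7 := by
  obtain ⟨M, h1, h2⟩ := exists_CP hcard ht
  exact mem_lst hcard (d := (ps7, ky7, 186)) (by simp [dat]) ht h1 (h2.c7 h)

theorem mem_cl7 {t : Spor.J4} (h : t ∈ cl7) : TY t ∧ t * v7 = v7 * t := by
  have h1 := of_mem_lst (d := (ps7, ky7, 186)) (by simp [dat]) h
  have h2 : getG LK 186 = v7 := LK_LJ 2
  rwa [h2] at h1

theorem comm8 (hcard : Nat.card {t // TY t} ≤ 10296) {t : Spor.J4} (ht : TY t)
    (h : t * v8 = v8 * t) : t ∈ cl8 := by
  obtain ⟨M, h1, h2⟩ := exists_CP hcard ht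
  exact mem_lst hcard (d := (ps8, ky8, 185)) (by simp [dat]) ht h1 (h2.c8 h)

theorem mem_cl8 {t : Spor.J4} (h : t ∈ cl8) : TY t ∧ t * v8 = v8 * t := by
  have h1 := of_mem_lst (d := (ps8, ky8, 185)) (by simp [dat]) h
  have h2 : getG LK 185 = v8 := LK_LJ 1
  rwa [h2] at h1

theorem comm9 (hcard : Nat.card {t // TY t} ≤ 10296) {t : Spor.J4} (ht : TY t)
    (h : t * v9 = v9 * t) : t ∈ cl9 := by
  obtain ⟨M, h1, h2⟩ := exists_CP hcard ht
  exact mem_lst hcard (d := (ps9, ky9, 184)) (by simp [dat]) ht h1 (h2.c9 h)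

theorem mem_cl9 {t : Spor.J4} (h : t ∈ cl9) : TY t ∧ t * v9 = v9 * t := by
  have h1 := of_mem_lst (d := (ps9, ky9, 184)) (by simp [dat]) h
  have h2 : getG LK 184 = v9 := LK_LJ 0
  rwa [h2] at h1

end Cfsg.Agent.H856.JM.Comm
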