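import Cfsg.Agent.H856.JM.CommData
import Cfsg.Agent.H111.JM.PcData

/-!
# The involutions inverting `y0` and commuting with `v3`, …, `v9`: the test (helper856)
-/

set_option autoImplicit false

open Cfsg

namespace Cfsg.Agent.H856.JM.CommTest

open Cfsg.Agent.Lib Cfsg.Agent.Lib.F2Mat Cfsg.Agent.Lib.F2MatGroup
open Cfsg.Agent.J4.Rep112
open Cfsg.Agent.H858.VK
open Cfsg.Agent.H878.JM.Base
open Cfsg.Agent.H111.JM.Eng Cfsg.Agent.H111.JM.Env
open Cfsg.Agent.H856.JM.CommData

/-- the test for one `v`: if `w` is fixed by `v` and the image of `p` is fixed by `v` then the key is in the list -/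
def tst (V p w M : ℕ) (K : List ℕ) : Bool :=
  cond (Nat.beq (vmul 112 w V) w)
    (force (vmul 112 p M) fun x => cond (Nat.beq (vmul 112 x V) x) (mem (key 12159 24 M) K) true) true

/-- the test -/
def test (M : ℕ) : Bool :=
  force (vmul 112 uA M) fun w => force (vmul 112 uB M) fun w' =>
    cond (tst mv3 pp3 w M ky3) (cond (tst mv4 pp4 w M ky4) (cond (tst mv5 pp5 w M ky5)
      (cond (tst mv6 pp6 w M ky6) (cond (tst mv7 pp7 w' M ky7) (cond (tst mv8 pp8 w' M ky8)
        (tst mv9 pp9 w' M ky9) false) false) false) false) false) false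

theorem fix_image {v t : Spor.J4} {V M u : ℕ} (hv : Codes 112 (rho v) V) (ht : Codes 112 (rho t) M)
    (hu : vmul 112 u V = u) (hc : t * v = v * t) : vmul 112 (vmul 112 u M) V = vmul 112 u M := by
  refine toVec_inj (n := 112) (vmul_lt _ _) (vmul_lt _ _) ?_
  have h1 : Matrix.vecMul (toVec 112 u)
      ((rho v : GL (Fin 112) (ZMod 2)) : Matrix (Fin 112) (Fin 112) (ZMod 2)) = toVec 112 u := by
    rw [← codes_vmul hv, hu]
  rw [codes_vmul hv, codes_vmul ht, Matrix.vecMul_vecMul, ← Units.val_mul, ← map_mul, hc, map_mul,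
    Units.val_mul, ← Matrix.vecMul_vecMul, h1]

theorem tst_sound {v t : Spor.J4} {V p u M : ℕ} {K : List ℕ} (hv : Codes 112 (rho v) V)
    (ht : Codes 112 (rho t) M) (hu : vmul 112 u V = u) (hp : vmul 112 p V = p) (hc : t * v = v * t)
    (h : tst V p (vmul 112 u M) M K = true) : key 12159 24 M ∈ K := by
  unfold tst at h
  rw [fix_image hv ht hu hc, Nat.beq_refl, force_eq, fix_image hv ht hp hc, Nat.beq_refl] at h
  exact mem_sound h

/-- the literals -/
def lits : List (ℕ × ℕ) := [(6, mv3), (5, mv4), (4, mv5), (3, mv6), (2, mv7), (1, mv8), (0, mv9)]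

theorem chk : run 112 slpJ codes
    (fun L => lits.all fun p => Nat.beq (get (F2Mat.one 112) L p.1) p.2) = true := by decide +kernel

theorem codes_lit {p : ℕ × ℕ} (hp : p ∈ lits) : Codes 112 (rho (getG LJ p.1)) p.2 := by
  obtain ⟨L', h1, h2⟩ := run_env chk
  rw [List.all_eq_true] at h2
  have h3 := Nat.eq_of_beq_eq_true (h2 p hp)
  have h4 := codes_get h1 p.1
  rw [getG_map, h3] at h4
  exact h4

theorem codes_v3 : Codes 112 (rho v3) mv3 := codes_lit (p := (6, mv3)) (by simp [lits])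
theorem codes_v4 : Codes 112 (rho v4) mv4 := codes_lit (p := (5, mv4)) (by simp [lits])
theorem codes_v5 : Codes 112 (rho v5) mv5 := codes_lit (p := (4, mv5)) (by simp [lits])
theorem codes_v6 : Codes 112 (rho v6) mv6 := codes_lit (p := (3, mv6)) (by simp [lits])
theorem codes_v7 : Codes 112 (rho v7) mv7 := codes_lit (p := (2, mv7)) (by simp [lits])
theorem codes_v8 : Codes 112 (rho v8) mv8 := codes_lit (p := (1, mv8)) (by simp [lits])
theorem codes_v9 : Codes 112 (rho v9) mv9 := codes_lit (p := (0, mv9)) (by simp [lits])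

theorem fix_check : ([(uA, mv3), (uA, mv4), (uA, mv5), (uA, mv6), (uB, mv7), (uB, mv8), (uB, mv9), (pp3, mv3),
    (pp4, mv4), (pp5, mv5), (pp6, mv6), (pp7, mv7), (pp8, mv8), (pp9, mv9)].all
    fun p : ℕ × ℕ => Nat.beq (vmul 112 p.1 p.2) p.1) = true := by decide +kernel

theorem fix_of {p : ℕ × ℕ} (hp : p ∈ [(uA, mv3), (uA, mv4), (uA, mv5), (uA, mv6), (uB, mv7), (uB, mv8),
    (uB, mv9), (pp3, mv3), (pp4, mv4), (pp5, mv5), (pp6, mv6), (pp7, mv7), (pp8, mv8), (pp9, mv9)]) :
    vmul 112 p.1 p.2 = p.1 := by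
  have h := fix_check
  rw [List.all_eq_true] at h
  exact Nat.eq_of_beq_eq_true (h p hp)

/-- the key of an element commuting with `v` is in the list -/
structure CP (t : Spor.J4) (M : ℕ) : Prop where
  c3 : t * v3 = v3 * t → key 12159 24 M ∈ ky3
  c4 : t * v4 = v4 * t → key 12159 24 M ∈ ky4
  c5 : t * v5 = v5 * t → key 12159 24 M ∈ ky5
  c6 : t * v6 = v6 * t → key 12159 24 M ∈ ky6
  c7 : t * v7 = v7 * t → key 12159 24 M ∈ ky7
  c8 : t * v8 = v8 * t → key 12159 24 M ∈ ky8
  c9 : t * v9 = v9 * t → key 12159 24 M ∈ ky9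

theorem cond_true {a b : Bool} (h : cond a b false = true) : a = true ∧ b = true := by
  cases a
  · exact absurd h Bool.false_ne_true
  · exact ⟨rfl, h⟩

theorem test_sound {t : Spor.J4} {M : ℕ} (ht : Codes 112 (rho t) M) (h : test M = true) : CP t M := by
  unfold test at h
  rw [force_eq, force_eq] at h
  obtain ⟨h3, h⟩ := cond_true h
  obtain ⟨h4, h⟩ := cond_true h
  obtain ⟨h5, h⟩ := cond_true h
  obtain ⟨h6, h⟩ := cond_true h
  obtain ⟨h7, h⟩ := cond_true h
  obtain ⟨h8, h9⟩ := cond_true h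
  exact ⟨fun hc => tst_sound codes_v3 ht (fix_of (p := (uA, mv3)) (by simp)) (fix_of (p := (pp3, mv3)) (by simp)) hc h3,
    fun hc => tst_sound codes_v4 ht (fix_of (p := (uA, mv4)) (by simp)) (fix_of (p := (pp4, mv4)) (by simp)) hc h4,
    fun hc => tst_sound codes_v5 ht (fix_of (p := (uA, mv5)) (by simp)) (fix_of (p := (pp5, mv5)) (by simp)) hc h5,
    fun hc => tst_sound codes_v6 ht (fix_of (p := (uA, mv6)) (by simp)) (fix_of (p := (pp6, mv6)) (by simp)) hc h6,
    fun hc => tst_sound codes_v7 ht (fix_of (p := (uB, mv7)) (by simp)) (fix_of (p := (pp7, mv7)) (by simp)) hc h7,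
    fun hc => tst_sound codes_v8 ht (fix_of (p := (uB, mv8)) (by simp)) (fix_of (p := (pp8, mv8)) (by simp)) hc h8,
    fun hc => tst_sound codes_v9 ht (fix_of (p := (uB, mv9)) (by simp)) (fix_of (p := (pp9, mv9)) (by simp)) hc h9⟩

/-- the elements of a checked piece -/
theorem piece {p : Piece} (h : p.chk 112 LC LC LT test = true) :
    ∀ t ∈ p.vis CJ TJ, ∃ M, Codes 112 (rho t) M ∧ CP t M := by
  intro t ht
  obtain ⟨M, h1, h2⟩ := chk_sound h t ht
  exact ⟨M, h1, test_sound h1 h2⟩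

end Cfsg.Agent.H856.JM.CommTest
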